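import Groth.Agent.Smoothlim.OmegaSpec
import Groth.Agent.PerfA.TildeModel
import Mathlib.AlgebraicGeometry.Morphisms.Smooth
import Mathlib.RingTheory.Smooth.StandardSmoothCotangent

/-!
# The sheaf of differentials of a smooth morphism of relative dimension `d` is locally free of rank `d`
-/

set_option autoImplicit false

universe u

open CategoryTheory CategoryTheory.Limits AlgebraicGeometry

namespace Groth.Agent.Dual.H339.OmegaRank

open Groth.Agent.PerfA.TildeModel Groth.Agent.PerfA.TildeRes Groth.Agent.PerfA.PerfLocal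

/-- The sheaf associated to a free module with `n` generators is free of rank `n`. -/
theorem nonempty_iso_freeMod {R : CommRingCat.{u}} (N : ModuleCat.{u} R) (n : ℕ)
    (b : Module.Basis (Fin n) R N) : Nonempty (tilde N ≅ FlatMod.freeMod (Spec R) n) :=
  ⟨(tilde.functor R).mapIso ((b.reindex (Equiv.ulift.symm : Fin n ≃ ULift.{u} (Fin n))).repr.toModuleIso) ≪≫
    tildeFinsupp (ULift.{u} (Fin n)) ≪≫ freeIsoFreeMod (Spec R) n⟩

theorem nonempty_basis {R A : Type u} [CommRing R] [CommRing A] [Algebra R A] [Nontrivial A] (d : ℕ)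
    [Algebra.IsStandardSmoothOfRelativeDimension d R A] : Nonempty (Module.Basis (Fin d) A (Ω[A⁄R])) := by
  have : Algebra.IsStandardSmooth R A := Algebra.IsStandardSmoothOfRelativeDimension.isStandardSmooth d
  have hr : Module.rank A (Ω[A⁄R]) = d :=
    Algebra.IsStandardSmoothOfRelativeDimension.rank_kaehlerDifferential d
  have hfr : Module.finrank A (Ω[A⁄R]) = d := Module.finrank_eq_of_rank_eq hr
  exact ⟨Module.finBasisOfFinrankEq A (Ω[A⁄R]) hfr⟩

theorem isFinLocFreeOfRank_omega {X S : Scheme.{u}} (d : ℕ) (f : X ⟶ S) [QuasiSeparated f]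
    [hf : SmoothOfRelativeDimension d f] : FlatMod.IsFinLocFreeOfRank d (Omega.sheaf f) := by
  intro x
  obtain ⟨V, hV, U, hU, hx, e, hs⟩ := hf.exists_isStandardSmoothOfRelativeDimension x
  let φ : Γ(S, V) ⟶ Γ(X, U) := f.appLE V U e
  let _ : Algebra Γ(S, V) Γ(X, U) := φ.hom.toAlgebra
  have : Algebra.IsStandardSmoothOfRelativeDimension d Γ(S, V) Γ(X, U) := hs
  have : Nonempty U := ⟨⟨x, hx⟩⟩
  have : Nontrivial Γ(X, U) := inferInstance
  obtain ⟨b⟩ := nonempty_basis (R := Γ(S, V)) (A := Γ(X, U)) d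
  have hw : hU.fromSpec ≫ f = Spec.map φ ≫ hV.fromSpec := (hV.SpecMap_appLE_fromSpec f hU e).symm
  let e1 := Smoothlim.ConormalRes.omegaRestrictIso hw
  let e2 : Omega.sheaf (Spec.map φ) ≅ tilde (R := Γ(X, U)) (ModuleCat.of Γ(X, U) (Ω[Γ(X, U)⁄Γ(S, V)])) :=
    Smoothlim.OmegaSpec.omegaSpecIso Γ(S, V) Γ(X, U)
  obtain ⟨e3⟩ := nonempty_iso_freeMod (R := Γ(X, U)) (ModuleCat.of Γ(X, U) (Ω[Γ(X, U)⁄Γ(S, V)])) d b
  let e4 : (Omega.sheaf f).restrict hU.fromSpec ≅ FlatMod.freeMod (Spec Γ(X, U)) d :=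
    (Scheme.Modules.restrictFunctorIsoPullback hU.fromSpec).app (Omega.sheaf f) ≪≫ e1 ≪≫ e2 ≪≫ e3
  exact ⟨U, hx, nonempty_iso_freeMod_restrict e4 U.ι hU.isoSpec.hom (by
    rw [IsAffineOpen.fromSpec, Iso.hom_inv_id_assoc])⟩

end Groth.Agent.Dual.H339.OmegaRank
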