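import Groth.Agent.Ega1.ADualOpen
import Groth.Agent.LoccohB.AdAffine
import Groth.Agent.LoccohB.GoodEval
import Groth.Agent.S1055
import Groth.Agent.PerfB.LpullOpens
import Groth.Agent.Sga67.KosGlobal

/-!
# `i^! K [m] ≅ Li^* K` locally, for a regular closed immersion `i` of codimension `m`

* `nonempty_iso_of_isGood`: the affine case (`Divisor.IsGood`);
* `nonempty_chart_iso`: over a chart of a regular closed immersion (`Y` Noetherian, `K` bounded below);
* `isZero_HD_iff`: `H^q(Li^* K) = 0 ↔ H^{m+q}(i^! K) = 0`;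
* `isLE_isGE_Lpull`, `isLE_isGE_upper`: if one of them is concentrated in one degree, so is the other.
-/

set_option autoImplicit false

universe u

open CategoryTheory CategoryTheory.Limits AlgebraicGeometry

attribute [local instance] HasDerivedCategory.standard

namespace Groth.Agent.Dual.H339.LocalDeg

open Groth.Agent.LoccohB Groth.Agent.LoccohB.AdAffine Groth.Agent.Ega1.ADualUniv
  Groth.Agent.Ega1.ADualOpen Groth.Agent.PerfA.Restrict Groth.Agent.Sga67.KosImm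
  Groth.Agent.Sga67.KosGlobal

/-- The affine case. -/
theorem nonempty_iso_of_isGood {B A : CommRingCat.{u}} (φ : B ⟶ A) (hφ : Function.Surjective φ.hom)
    (n : ℤ) (hg : Divisor.IsGood φ.hom n) [DCoh.HasLpull (Spec.map φ)] [DCoh.HasRpush (Spec.map φ)]
    {K : DCoh.D (Spec B)} {L : DCoh.D (Spec A)} (hK : DCoh.IsQCohD K) (h : Univ (Spec.map φ) K L) :
    Nonempty (L⟦n⟧ ≅ (DCoh.Lpull (Spec.map φ)).obj K) := by
  have h1 : DRing.HasLBaseChange φ.hom := LBC.hasLBaseChange _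
  obtain ⟨K₀, ⟨eK⟩⟩ := ((S0997.result B).2.2 K).1 hK
  obtain ⟨e1⟩ := nonempty_iso_radj φ hφ h K₀ eK (RAdj.coextAdj φ.hom)
  obtain ⟨e2⟩ := hg h1 _ (RAdj.coextAdj φ.hom) K₀
  obtain ⟨e3⟩ := S1055.result φ.hom
  exact ⟨(shiftFunctor _ n).mapIso e1.symm ≪≫ (((tD A).commShiftIso n).app _).symm ≪≫
    (tD A).mapIso e2 ≪≫ e3.app K₀ ≪≫ (DCoh.Lpull (Spec.map φ)).mapIso eK⟩

variable {X Y : Scheme.{u}}

/-- The ring map of a chart. -/
lemma isGood_chart (i : X ⟶ Y) [IsClosedImmersion i] (c : Chart i) :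
    Divisor.IsGood (i.app c.U).hom (c.l.length : ℤ) := by
  refine GoodEval.isGood_of_isWeaklyRegular c.l.length c.l rfl c.hl _ (i.app_surjective c.U c.hU) ?_
  rw [← c.hker, Scheme.Hom.ker_apply]

/-- The cartesian square of a chart. -/
lemma isPullback_chart (i : X ⟶ Y) [IsClosedImmersion i] (U : Y.Opens) (hU : IsAffineOpen U) :
    IsPullback (hU.preimage i).fromSpec (Spec.map (i.app U)) i hU.fromSpec := by
  refine (IsOpenImmersion.isPullback _ _ _ _ ?_ ?_).flip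
  · have h := IsAffineOpen.SpecMap_appLE_fromSpec i hU (hU.preimage i) le_rfl
    rw [Scheme.Hom.app_eq_appLE]
    exact h.symm
  · rw [IsAffineOpen.opensRange_fromSpec, IsAffineOpen.opensRange_fromSpec]

/-- `i^! K [m] ≅ Li^* K` over a chart. -/
theorem nonempty_chart_iso [IsNoetherian Y] (i : X ⟶ Y) [IsClosedImmersion i] [DCoh.HasRpush i]
    [DCoh.HasLpull i] (c : Chart i) {K : DCoh.D Y} {L : DCoh.D X} (hK : DCoh.IsQCohD K) (b : ℤ)
    (hb : K.IsGE b) (h : Univ i K L) :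
    Nonempty (((restrictD (c.hU.preimage i).fromSpec).obj L)⟦(c.l.length : ℤ)⟧ ≅
      (restrictD (c.hU.preimage i).fromSpec).obj ((DCoh.Lpull i).obj K)) := by
  have hp := isPullback_chart i c.U c.hU
  have : DCoh.HasRpush (Spec.map (i.app c.U)) := Dcoh.DerSch.hasRpush _
  have : DCoh.HasLpull (Spec.map (i.app c.U)) := S0959.result _
  have h1 := Univ.restrict i hp hK b hb h
  have h2 : DCoh.IsQCohD ((restrictD c.hU.fromSpec).obj K) := PerfA.QCohD.isQCohD_restrictD _ hK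
  obtain ⟨e1⟩ := nonempty_iso_of_isGood (i.app c.U) (i.app_surjective c.U c.hU) _ (isGood_chart i c) h2 h1
  obtain ⟨e2⟩ := PerfB.LpullOpens.nonempty_lpullRestrict (c.hU.preimage i).fromSpec i
    (Spec.map (i.app c.U)) c.hU.fromSpec hp.w
  exact ⟨e1 ≪≫ (e2.app K).symm⟩

/-- `H^q(Li^* K) = 0` iff `H^{m+q}(i^! K) = 0`. -/
theorem isZero_HD_iff [IsNoetherian Y] (i : X ⟶ Y) [IsClosedImmersion i] [DCoh.HasRpush i]
    [DCoh.HasLpull i] (hi : Mor2.IsRegularClosedImmersion i) {m : ℕ}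
    (hN : FlatMod.IsFinLocFreeOfRank m (Omega.conormal i)) {K : DCoh.D Y} {L : DCoh.D X}
    (hK : DCoh.IsQCohD K) (b : ℤ) (hb : K.IsGE b) (h : Univ i K L) (q r : ℤ) (hqr : m + q = r) :
    IsZero (DCoh.HD ((DCoh.Lpull i).obj K) q) ↔ IsZero (DCoh.HD L r) := by
  rw [isZero_iff_stalk, isZero_iff_stalk]
  refine forall_congr' fun x => ?_
  obtain ⟨c, hc, -⟩ := exists_chart hi x ⊤ trivial
  have hl : c.l.length = m := length_eq hN c x hc
  obtain ⟨e⟩ := nonempty_chart_iso i c hK b hb h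
  let j := (c.hU.preimage i).fromSpec
  obtain ⟨y, hy⟩ : ∃ y, j y = x := ⟨(c.hU.preimage i).primeIdealOf ⟨x, hc⟩,
    (c.hU.preimage i).fromSpec_primeIdealOf ⟨x, hc⟩⟩
  let e1 : (DCoh.HD L r).restrict j ≅ (DCoh.HD ((DCoh.Lpull i).obj K) q).restrict j :=
    (PerfA.Restrict.HDrestrict j L r).symm ≪≫
      (LoccohB.DQCohBasic.homologyShiftIso ((restrictD j).obj L) (c.l.length : ℤ) q r
        (by rw [hl]; exact hqr)).symm ≪≫
      (DerivedCategory.homologyFunctor _ q).mapIso e ≪≫ PerfA.Restrict.HDrestrict j ((DCoh.Lpull i).obj K) q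
  have e2 := (stalkRestrict j y).app (DCoh.HD L r)
  have e3 := (stalkRestrict j y).app (DCoh.HD ((DCoh.Lpull i).obj K) q)
  rw [← hy]
  exact (e3.symm ≪≫ (stalkAb y).mapIso e1.symm ≪≫ e2).isZero_iff

end Groth.Agent.Dual.H339.LocalDeg
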