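import Groth.Agent.Sga67.KosGlobal
import Groth.Agent.Sga67.KosRes
import Groth.Agent.Sga67.ClosedPush
import Groth.Agent.PerfC.LpullFlat

/-!
# The cohomology sheaves of `Li^* Ri_* M` for a regular closed immersion

* `nonempty_iso`: `H^{-p}(Li^* Ri_* M) ≅ M ⊗ Λ^p(conormal)`;
* `isLE`, `isGE`: they vanish in degrees `> 0` and `< -r`, `r` the rank of the conormal module.
-/

set_option autoImplicit false

universe u

open CategoryTheory CategoryTheory.Limits AlgebraicGeometry

attribute [local instance] HasDerivedCategory.standard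

namespace Groth.Agent.Dual.H339.KosHD

open Groth.Agent.Sga67

variable {X Y : Scheme.{u}} (i : Y ⟶ X) [IsClosedImmersion i] [DCoh.HasLpull i] [DCoh.HasRpush i]

/-- `Ri_* M = i_* M` termwise. -/
theorem nonempty_rpushIso [PreservesFiniteLimits (Scheme.Modules.pushforward i)]
    [PreservesFiniteColimits (Scheme.Modules.pushforward i)] :
    Nonempty (DCoh.Rpush i ≅ (Scheme.Modules.pushforward i).mapDerivedCategory) :=
  ⟨PerfC.LpullFlat.rpushIso i⟩

/-- `Ri_* (M[0]) = (i_* M)[0]`. -/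
theorem nonempty_rpush_inD (M : Y.Modules) :
    Nonempty ((DCoh.Rpush i).obj (DCoh.inD Y M) ≅ DCoh.inD X ((Scheme.Modules.pushforward i).obj M)) := by
  have : PreservesFiniteLimits (Scheme.Modules.pushforward i) := inferInstance
  have : PreservesFiniteColimits (Scheme.Modules.pushforward i) :=
    ClosedPush.preservesFiniteColimits_pushforward i
  obtain ⟨e⟩ := nonempty_rpushIso i
  exact ⟨e.app _ ≪≫ ((Scheme.Modules.pushforward i).mapDerivedCategorySingleFunctor 0).app M⟩

/-- `H^{-p}(Li^* Ri_* M) ≅ M ⊗ Λ^p(conormal)` for a regular closed immersion `i`. -/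
theorem nonempty_iso (hi : Mor2.IsRegularClosedImmersion i) (M : Y.Modules) (p : ℕ) {L : Y.Modules}
    (hL : ExtPow.IsExtPow p (Omega.conormal i) L) :
    Nonempty (DCoh.HD ((DCoh.Lpull i).obj ((DCoh.Rpush i).obj (DCoh.inD Y M))) (-(p : ℤ)) ≅
      CohB1.tensorMod M L) := by
  have : PreservesFiniteLimits (Scheme.Modules.pushforward i) := inferInstance
  have : PreservesFiniteColimits (Scheme.Modules.pushforward i) :=
    ClosedPush.preservesFiniteColimits_pushforward i
  obtain ⟨e⟩ := nonempty_rpushIso i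
  obtain ⟨D, hD⟩ := KosRes.exists_dat i M
  obtain ⟨H⟩ := hD p
  obtain ⟨t⟩ := KosGlobal.nonempty_iso D H hi hL
  exact ⟨(DerivedCategory.homologyFunctor Y.Modules (-(p : ℤ))).mapIso
    ((DCoh.Lpull i).mapIso (e.app (DCoh.inD Y M))) ≪≫ t⟩

/-- `H^{-p}(Li^* Ri_* M) = 0` for `p > r`. -/
theorem isZero (hi : Mor2.IsRegularClosedImmersion i) {r : ℕ}
    (hN : FlatMod.IsFinLocFreeOfRank r (Omega.conormal i)) (M : Y.Modules) (p : ℕ) (hp : r < p) :
    IsZero (DCoh.HD ((DCoh.Lpull i).obj ((DCoh.Rpush i).obj (DCoh.inD Y M))) (-(p : ℤ))) := by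
  have : PreservesFiniteLimits (Scheme.Modules.pushforward i) := inferInstance
  have : PreservesFiniteColimits (Scheme.Modules.pushforward i) :=
    ClosedPush.preservesFiniteColimits_pushforward i
  obtain ⟨e⟩ := nonempty_rpushIso i
  obtain ⟨D, hD⟩ := KosRes.exists_dat i M
  obtain ⟨H⟩ := hD p
  exact (KosGlobal.isZero D H hi hN hp).of_iso ((DerivedCategory.homologyFunctor Y.Modules (-(p : ℤ))).mapIso
    ((DCoh.Lpull i).mapIso (e.app (DCoh.inD Y M))))

theorem isLE (M : Y.Modules) : ((DCoh.Lpull i).obj ((DCoh.Rpush i).obj (DCoh.inD Y M))).IsLE 0 := by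
  rw [DerivedCategory.isLE_iff]
  intro n hn
  obtain ⟨e⟩ := nonempty_rpush_inD i M
  exact IsZero.of_iso (SelfIntT.isZero_of_pos i ((Scheme.Modules.pushforward i).obj M) n hn)
    ((DerivedCategory.homologyFunctor Y.Modules n).mapIso ((DCoh.Lpull i).mapIso e))

theorem isGE (hi : Mor2.IsRegularClosedImmersion i) {r : ℕ}
    (hN : FlatMod.IsFinLocFreeOfRank r (Omega.conormal i)) (M : Y.Modules) :
    ((DCoh.Lpull i).obj ((DCoh.Rpush i).obj (DCoh.inD Y M))).IsGE (-(r : ℤ)) := by
  rw [DerivedCategory.isGE_iff]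
  intro n hn
  have h1 := isZero i hi hN M (-n).toNat (by omega)
  have h2 : -(((-n).toNat : ℕ) : ℤ) = n := by omega
  rwa [h2] at h1

end Groth.Agent.Dual.H339.KosHD
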