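import Groth.Agent.Dual.H339.LocalDeg
import Groth.Agent.Dual.H339.KosHD
import Groth.Agent.LoccohB.PerfTri
import Groth.Agent.S1105

/-!
# `i_* O` is perfect for a regular closed immersion `i`
-/

set_option autoImplicit false

universe u

open CategoryTheory CategoryTheory.Limits AlgebraicGeometry

attribute [local instance] HasDerivedCategory.standard

namespace Groth.Agent.Dual.H339.PerfPush

open Groth.Agent.LoccohB Groth.Agent.LoccohB.AdAffine Groth.Agent.LoccohB.PerfTri
  Groth.Agent.PerfA.Restrict Groth.Agent.Sga67.KosImm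

section Alg

open RingTheory.Sequence Pointwise

/-- The quotient of a module with perfect class by a weakly regular sequence has perfect class. -/
theorem isPerfect_quotient {B : Type u} [CommRing B] : ∀ (l : List B) (M : Type u) [AddCommGroup M]
    [Module B M], IsWeaklyRegular M l → DRing.IsPerfect B (Dual.inD B M) →
    DRing.IsPerfect B (Dual.inD B (M ⧸ (Ideal.ofList l • ⊤ : Submodule B M)))
  | [], M, _, _, _, hM => by
    have h1 : (Ideal.ofList ([] : List B) • ⊤ : Submodule B M) = ⊥ := by
      rw [Ideal.ofList_nil, Submodule.bot_smul]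
    exact isPerfect_of_iso (inDIso ((Submodule.quotEquivOfEqBot _ h1).symm)) hM
  | f :: l, M, _, _, h, hM => by
    rw [isWeaklyRegular_cons_iff] at h
    have h1 : DRing.IsPerfect B (Dual.inD B (QuotSMulTop f M)) := by
      refine isPerfect_right (LinearMap.lsmul B M f) (Submodule.mkQ (f • ⊤ : Submodule B M)) ?_ ?_ ?_ hM hM
      · exact h.1
      · rw [LinearMap.exact_iff, Submodule.ker_mkQ]
        ext x
        simp only [LinearMap.mem_range, LinearMap.lsmul_apply, Submodule.mem_smul_pointwise_iff_exists,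
          Submodule.mem_top, true_and]
      · exact Submodule.mkQ_surjective _
    have h2 := isPerfect_quotient l (QuotSMulTop f M) h.2 h1
    exact isPerfect_of_iso (inDIso (Submodule.quotOfListConsSMulTopEquivQuotSMulTopInner M f l).symm) h2

/-- A surjection whose kernel is generated by a weakly regular sequence is perfect. -/
theorem isPerfect_restrictD {B A : Type u} [CommRing B] [CommRing A] (φ : B →+* A)
    (hφ : Function.Surjective φ) (l : List B) (hl : IsWeaklyRegular B l)
    (hker : RingHom.ker φ = Ideal.ofList l) :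
    DRing.IsPerfect B ((DRing.restrictD φ).obj (Dual.inD A A)) := by
  let _ : Module B A := Module.compHom A φ
  have h1 : DRing.IsPerfect B (Dual.inD B (B ⧸ (Ideal.ofList l • ⊤ : Submodule B B))) :=
    isPerfect_quotient l B hl (isPerfect_inD_of_projective B)
  let g : B →ₗ[B] A :=
    { toFun := φ
      map_add' := map_add φ
      map_smul' := fun a b => map_mul φ a b }
  have hg : LinearMap.ker g = (Ideal.ofList l • ⊤ : Submodule B B) := by
    rw [smul_eq_mul, Ideal.mul_top, ← hker]
    rfl
  let e : (B ⧸ (Ideal.ofList l • ⊤ : Submodule B B)) ≃ₗ[B] A :=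
    (Submodule.quotEquivOfEq _ _ hg.symm).trans (g.quotKerEquivOfSurjective hφ)
  refine isPerfect_of_iso (inDIso e ≪≫ ?_) h1
  exact (((ModuleCat.restrictScalars.{u} φ).mapDerivedCategorySingleFunctor 0).app (ModuleCat.of A A)).symm

end Alg

variable {X Y : Scheme.{u}}

/-- A module all whose sections vanish is zero. -/
theorem isZero_of_subsingleton {N : Y.Modules} (h : ∀ V : Y.Opens, Subsingleton Γ(N, V)) : IsZero N := by
  rw [IsZero.iff_id_eq_zero]
  apply Scheme.Modules.hom_ext
  intro V
  ext s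
  exact (h V).elim _ _

/-- Sections over the empty open. -/
theorem subsingleton_sections (M : X.Modules) {U : X.Opens} (hU : U = ⊥) : Subsingleton Γ(M, U) := by
  subst hU
  exact Module.subsingleton Γ(X, (⊥ : X.Opens)) Γ(M, (⊥ : X.Opens))

/-- The restriction of `i_* M` to the complement of the image of `i` is zero. -/
theorem isZero_restrict_push (i : X ⟶ Y) (M : X.Modules) (V : Y.Opens) (hV : i ⁻¹ᵁ V = ⊥) :
    IsZero (((Scheme.Modules.pushforward i).obj M).restrict V.ι) := by
  refine isZero_of_subsingleton fun W => ?_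
  have h1 : i ⁻¹ᵁ (V.ι ''ᵁ W) = ⊥ := by
    rw [eq_bot_iff, ← hV]
    exact i.preimage_mono (V.ι_image_le W)
  exact subsingleton_sections M h1

/-- `i_* O` is perfect for a regular closed immersion `i`. -/
theorem isPerfect_push (i : X ⟶ Y) [IsClosedImmersion i] [DCoh.HasRpush i]
    (hi : Mor2.IsRegularClosedImmersion i) :
    DCoh.IsPerfect ((DCoh.Rpush i).obj (DCoh.inD X (Coh.structureModule X))) := by
  refine Dcoh.LocalD.isPerfect_of_cover fun y => ?_
  by_cases hy : y ∈ Set.range i
  · obtain ⟨x, rfl⟩ := hy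
    obtain ⟨c, hc, -⟩ := exists_chart hi x ⊤ trivial
    have hp := LocalDeg.isPullback_chart i c.U c.hU
    have : DCoh.HasRpush (Spec.map (i.app c.U)) := Dcoh.DerSch.hasRpush _
    refine ⟨_, c.hU.fromSpec, inferInstance, ⟨c.hU.primeIdealOf ⟨i x, hc⟩,
      c.hU.fromSpec_primeIdealOf ⟨i x, hc⟩⟩, ?_⟩
    obtain ⟨e1⟩ := Dcoh.DerSch.exists_rpushRestrictIso i (Spec.map (i.app c.U)) (c.hU.preimage i).fromSpec c.hU.fromSpec hp
    obtain ⟨e2⟩ := exists_iso_Rpush (i.app c.U) (i.app_surjective c.U c.hU)
    let j' := (c.hU.preimage i).fromSpec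
    let e3 : (restrictD j').obj (DCoh.inD X (Coh.structureModule X)) ≅
        (tD Γ(X, i ⁻¹ᵁ c.U)).obj (Dual.inD Γ(X, i ⁻¹ᵁ c.U) Γ(X, i ⁻¹ᵁ c.U)) :=
      ((Scheme.Modules.restrictFunctor j').mapDerivedCategorySingleFunctor 0).app _ ≪≫
        (DerivedCategory.singleFunctor (Spec Γ(X, i ⁻¹ᵁ c.U)).Modules 0).mapIso
          (Scheme.Modules.restrictUnitIso j' ≪≫ tildeSelf.symm) ≪≫
        (((tilde.functor Γ(X, i ⁻¹ᵁ c.U)).mapDerivedCategorySingleFunctor 0).app _).symm
    refine Dcoh.LocalD.isPerfect_of_iso ((e1.app _ ≪≫ (DCoh.Rpush (Spec.map (i.app c.U))).mapIso e3 ≪≫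
      e2.app _).symm) ?_
    refine (S1105.result Γ(Y, c.U) _).2 ?_
    refine isPerfect_restrictD (i.app c.U).hom (i.app_surjective c.U c.hU) c.l c.hl ?_
    rw [← c.hker, Scheme.Hom.ker_apply]
  · let V : Y.Opens := ⟨(Set.range i)ᶜ, i.isClosedEmbedding.isClosed_range.isOpen_compl⟩
    have hV : i ⁻¹ᵁ V = ⊥ := by
      rw [eq_bot_iff]
      intro x hx
      exact hx ⟨x, rfl⟩
    refine ⟨V, V.ι, inferInstance, ⟨⟨y, hy⟩, rfl⟩, ?_⟩
    have : DCoh.HasLpull i := S0959.result _
    obtain ⟨e⟩ := KosHD.nonempty_rpush_inD i (Coh.structureModule X)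
    refine PerfA.PerfLocal.isPerfect_of_isZero ?_
    refine IsZero.of_iso ?_ ((restrictD V.ι).mapIso e ≪≫
      ((Scheme.Modules.restrictFunctor V.ι).mapDerivedCategorySingleFunctor 0).app _)
    exact (DerivedCategory.singleFunctor _ 0).map_isZero
      (isZero_restrict_push i (Coh.structureModule X) V hV)

end Groth.Agent.Dual.H339.PerfPush
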