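import Groth.Agent.Dual.H339.Twist
import Groth.Agent.Dual.H339.LocalDeg
import Groth.Agent.Dual.H339.PerfPush

/-!
# The fundamental local isomorphism in twisted form, complete version

`i : X ⟶ Y` a regular closed immersion into a Noetherian scheme, with conormal module locally free of rank `m`
and `m`-th exterior power `LC`; `K ∈ D^+_QCoh(Y)` and `L = i^! K` (`Univ i K L`). If `Li^* K` is concentrated in
degree `n`, then `L ≅ w[-(m + n)]` for an `O_X`-module `w`, and `w ⊗ LC ≅ Hⁿ(Li^* K)`.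
-/

set_option autoImplicit false

universe u

open CategoryTheory CategoryTheory.Limits AlgebraicGeometry

attribute [local instance] HasDerivedCategory.standard

namespace Groth.Agent.Dual.H339.TwistFull

open Groth.Agent.Ega1.ADualUniv Groth.Agent.Dual.H339.DualPair

variable {X Y : Scheme.{u}}

/-- An object concentrated in degree `n` is `w[-n]`. -/
theorem exists_iso_inD (K : DCoh.D X) (n a : ℤ) (h1 : K.IsLE n) (h2 : K.IsGE n) (hna : a + n = 0) :
    Nonempty (K ≅ (DCoh.inD X (DCoh.HD K n))⟦a⟧) := by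
  obtain ⟨e⟩ := LoccohB.DCalc.exists_iso_single K n
  exact ⟨e ≪≫ (((DerivedCategory.singleFunctors X.Modules).shiftIso a n 0 hna).app _).symm⟩

/-- `i_* O` is perfect for a regular closed immersion. -/
theorem isPerfect_pushOD (i : X ⟶ Y) [IsClosedImmersion i] [DCoh.HasRpush i]
    (hi : Mor2.IsRegularClosedImmersion i) : DCoh.IsPerfect ((DCoh.Rpush i).obj (OD X)) :=
  Dcoh.LocalD.isPerfect_of_iso ((DCoh.Rpush i).mapIso Twist.ODIso.symm) (PerfPush.isPerfect_push i hi)

theorem main [IsNoetherian Y] (i : X ⟶ Y) [IsClosedImmersion i] [DCoh.HasLpull i] [DCoh.HasRpush i]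
    (hi : Mor2.IsRegularClosedImmersion i) {m : ℕ}
    (hN : FlatMod.IsFinLocFreeOfRank m (Omega.conormal i)) {LC : X.Modules}
    (hLC : ExtPow.IsExtPow m (Omega.conormal i) LC) {K : DCoh.D Y} (hK : DCoh.IsQCohD K) (b : ℤ)
    (hb : K.IsGE b) {L : DCoh.D X} (h : Univ i K L) (n : ℤ) (hn1 : ((DCoh.Lpull i).obj K).IsLE n)
    (hn2 : ((DCoh.Lpull i).obj K).IsGE n) (a : ℤ) (ha : a + n = -(m : ℤ)) :
    ∃ w : X.Modules, Nonempty (L ≅ (DCoh.inD X w)⟦a⟧) ∧
      Nonempty (CohB1.tensorMod w LC ≅ DCoh.HD ((DCoh.Lpull i).obj K) n) := by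
  have hdeg : ∀ q : ℤ, q ≠ m + n → IsZero (DCoh.HD L q) := by
    intro q hq
    rw [← LocalDeg.isZero_HD_iff i hi hN hK b hb h (q - m) q (by ring)]
    rcases lt_or_gt_of_ne (show q - m ≠ n by omega) with h' | h'
    · exact DerivedCategory.isZero_of_isGE _ n _ h'
    · exact DerivedCategory.isZero_of_isLE _ n _ h'
  have hLE : L.IsLE (m + n) := by
    rw [DerivedCategory.isLE_iff]
    exact fun q hq => hdeg q (by omega)
  have hGE : L.IsGE (m + n) := by
    rw [DerivedCategory.isGE_iff]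
    exact fun q hq => hdeg q (by omega)
  obtain ⟨e⟩ := exists_iso_inD L (m + n) a hLE hGE (by omega)
  have hq : DCoh.IsQCohD ((DCoh.inD X (DCoh.HD L (m + n)))⟦a⟧) := PerfA.QCohD.isQCohD_of_iso e h.qcoh
  exact ⟨_, ⟨e⟩, Twist.main i hi (isPerfect_pushOD i hi) hLC hK _ a n (h.of_iso_left e hq) hn1 hn2 ha⟩

end Groth.Agent.Dual.H339.TwistFull
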