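import Groth.Agent.Dual.H339.Final

/-!
# S3635 from flat base change

* `core`: the statement of S3635, given `Univ pr₂ (Lf^* O_S) (L pr₁^* a(O_S))`.
-/

set_option autoImplicit false

universe u

open CategoryTheory CategoryTheory.Limits AlgebraicGeometry

attribute [local instance] HasDerivedCategory.standard

namespace Groth.Agent.Dual.H339.Core

open Groth.Agent.Ega1.ADualUniv Groth.Agent.Ega1.ADualOpen Groth.Agent.LoccohB.AdStruct
  Groth.Agent.Dual.H339.DualPair

variable {X S : Scheme.{u}}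

/-- `Lf^* O_S ≅ O_X`. -/
theorem nonempty_lpull_unit (f : X ⟶ S) [DCoh.HasLpull f] {K : DCoh.D S}
    (hK : Nonempty (K ≅ DCoh.inD S (Coh.structureModule S))) :
    Nonempty ((DCoh.Lpull f).obj K ≅ DCoh.inD X (Coh.structureModule X)) := by
  obtain ⟨e⟩ := hK
  exact ⟨(DCoh.Lpull f).mapIso (e ≪≫ Twist.ODIso.symm) ≪≫ PerfC.LpullTens.lpullUnit f ≪≫ Twist.ODIso⟩

/-- S3635 from flat base change. -/
theorem core [IsNoetherian S] (d : ℕ) (f : X ⟶ S) [IsProper f] [SmoothOfRelativeDimension d f]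
    [DCoh.HasRpush f] (hf : DCoh.RpushPreservesQCoh f) (a : DCoh.DQCoh S ⥤ DCoh.DQCoh X)
    (adj : DCoh.RpushQ f hf ⊣ a) (O : DCoh.DQCoh S)
    (hO : Nonempty (O.obj ≅ DCoh.inD S (Coh.structureModule S))) (L : X.Modules)
    (hL : ExtPow.IsExtPow d (Omega.sheaf f) L) [DCoh.HasLpull f] [DCoh.HasRpush (pullback.snd f f)]
    [DCoh.HasLpull (pullback.fst f f)]
    (hBC : Univ (pullback.snd f f) ((DCoh.Lpull f).obj O.obj)
      ((DCoh.Lpull (pullback.fst f f)).obj (a.obj O).obj)) :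
    Nonempty ((a.obj O).obj ≅ (DCoh.inD X L)⟦(d : ℤ)⟧) := by
  have hX : IsNoetherian X := isNoetherian_of_finiteType f
  have hu : Univ f O.obj (a.obj O).obj := univ_of_adj (h := hf) adj O
  obtain ⟨e⟩ := hO
  have hOge : O.obj.IsGE 0 := by
    have : (DCoh.inD S (Coh.structureModule S)).IsGE 0 :=
      inferInstanceAs (((DerivedCategory.singleFunctor S.Modules 0).obj _).IsGE 0)
    exact ⟨(DerivedCategory.TStructure.t.isGE_of_iso e.symm _).ge⟩
  obtain ⟨b, hb⟩ := exists_isGE f hu O.property 0 hOge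
  exact Final.main d f (nonempty_lpull_unit f ⟨e⟩) (a.obj O).property b hb hBC L hL

end Groth.Agent.Dual.H339.Core
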