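import Groth.Agent.PerfC.RHomBnd556
import Groth.Agent.PerfC.LpullTens
import Groth.Agent.LoccohB.DCalc

/-!
# Lowest cohomology of `RHom(T, G)`

`T ≤ 0` with `H⁰(T) ≅ O`, and `G` concentrated in degree `n`: then `Hⁿ(RHom(T, G)) ≅ Hⁿ(G)`.
-/

set_option autoImplicit false

universe w v u

open CategoryTheory CategoryTheory.Limits CategoryTheory.Pretriangulated CategoryTheory.Triangulated
  AlgebraicGeometry

namespace Groth.Agent.Dual.H339.DualBound

open DerivedCategory Groth.Agent.LoccohB.DCalc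

section Abstract

variable {A : Type u} [Category.{v} A] [Abelian A] [HasDerivedCategory.{w} A]

lemma hom_eq_zero {X Y : DerivedCategory A} (n : ℤ) (hX : X.IsLE (n - 1)) (hY : Y.IsGE n) (f : X ⟶ Y) :
    f = 0 :=
  TStructure.t.zero_of_isLE_of_isGE f (n - 1) n (by lia) hX hY

lemma isLE_of_le {X : DerivedCategory A} {n m : ℤ} (h : n ≤ m) (hX : X.IsLE n) : X.IsLE m := by
  rw [isLE_iff] at hX ⊢
  exact fun i hi => hX i (by lia)

lemma isLE_shift {X : DerivedCategory A} (n a m : ℤ) (hX : X.IsLE n) (h : a + m = n) :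
    (X⟦a⟧).IsLE m := by
  have : TStructure.t.IsLE X n := hX
  exact TStructure.t.isLE_shift X n a m h

/-- In a triangle `X₁ → X₂ → X₃ → X₁[1]` with `X₁ ≤ n - 1`, morphisms `X₂ ⟶ G` and `X₃ ⟶ G` agree for
`G ≥ n`. -/
lemma bijective_precomp (T : Triangle (DerivedCategory A)) (hT : T ∈ distTriang (DerivedCategory A))
    (n : ℤ) (h1 : T.obj₁.IsLE (n - 1)) (G : DerivedCategory A) (hG : G.IsGE n) :
    Function.Bijective (fun g : T.obj₃ ⟶ G => T.mor₂ ≫ g) := by
  constructor
  · intro g g' h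
    have h2 : T.mor₂ ≫ (g - g') = 0 := by
      rw [Preadditive.comp_sub, sub_eq_zero]
      exact h
    obtain ⟨k, hk⟩ := Triangle.yoneda_exact₃ T hT (g - g') h2
    have h3 : k = 0 := hom_eq_zero n (isLE_of_le (by lia) (isLE_shift (n - 1) 1 (n - 2) h1 (by lia))) hG k
    rw [h3, comp_zero, sub_eq_zero] at hk
    exact hk
  · intro f
    have h2 : T.mor₁ ≫ f = 0 := hom_eq_zero n h1 hG _
    obtain ⟨g, hg⟩ := Triangle.yoneda_exact₂ T hT f h2
    exact ⟨g, hg.symm⟩

/-- A morphism `h : G ⟶ X` with `G ≤ n`, inducing bijections `Hom(N, G) → Hom(N, X)` for `N ≤ n`, is an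
isomorphism on `Hⁿ`. -/
lemma isIso_homology {G X : DerivedCategory A} (n : ℤ) (hG : G.IsLE n) (h : G ⟶ X)
    (hb : ∀ N : DerivedCategory A, N.IsLE n → Function.Bijective (fun g : N ⟶ G => g ≫ h)) :
    IsIso ((homologyFunctor A n).map h) := by
  let j := (TStructure.t.truncLEι n).app X
  have hj : IsIso ((homologyFunctor A n).map j) := isIso_homology_truncLEι X n n le_rfl
  have hX' : ((TStructure.t.truncLE n).obj X).IsLE n := TStructure.t.isLE_truncLE_obj X n n le_rfl
  obtain ⟨s, hs⟩ := (hb _ hX').2 j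
  have hG' : TStructure.t.IsLE G n := hG
  let h' : G ⟶ (TStructure.t.truncLE n).obj X := TStructure.t.liftTruncLE h n
  have hh' : h' ≫ j = h := TStructure.t.liftTruncLE_ι h n
  have e1 : h' ≫ s = 𝟙 G := by
    apply (hb G hG).1
    change (h' ≫ s) ≫ h = 𝟙 G ≫ h
    have hs' : s ≫ h = j := hs
    rw [Category.assoc, hs', hh', Category.id_comp]
  have hs2 : s ≫ h = j := hs
  have e2 : (homologyFunctor A n).map h' ≫ (homologyFunctor A n).map s = 𝟙 _ := by
    rw [← Functor.map_comp, e1, CategoryTheory.Functor.map_id]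
  have e3 : (homologyFunctor A n).map s ≫ (homologyFunctor A n).map h = (homologyFunctor A n).map j := by
    rw [← Functor.map_comp, hs2]
  have m1 : Mono ((homologyFunctor A n).map s) := by
    have : Mono ((homologyFunctor A n).map s ≫ (homologyFunctor A n).map h) := by
      rw [e3]; infer_instance
    exact mono_of_mono _ ((homologyFunctor A n).map h)
  have m2 : Epi ((homologyFunctor A n).map s) := by
    have : Epi ((homologyFunctor A n).map h' ≫ (homologyFunctor A n).map s) := by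
      rw [e2]; infer_instance
    exact epi_of_epi ((homologyFunctor A n).map h') _
  have m3 : IsIso ((homologyFunctor A n).map s) := isIso_of_mono_of_epi _
  have m4 : IsIso ((homologyFunctor A n).map s ≫ (homologyFunctor A n).map h) := by
    rw [e3]; infer_instance
  exact IsIso.of_isIso_comp_left ((homologyFunctor A n).map s) _

end Abstract

/-- Replacing the third object of a distinguished triangle by an isomorphic one. -/
lemma dist_of_iso₃ {C : Type u} [Category.{v} C] [HasZeroObject C] [HasShift C ℤ] [Preadditive C]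
    [∀ n : ℤ, (shiftFunctor C n).Additive] [Pretriangulated C] (T : Triangle C)
    (hT : T ∈ distTriang C) {Z : C} (e : T.obj₃ ≅ Z) :
    Triangle.mk T.mor₁ (T.mor₂ ≫ e.hom) (e.inv ≫ T.mor₃) ∈ distTriang C := by
  refine isomorphic_distinguished _ hT _ ?_
  refine Triangle.isoMk _ _ (Iso.refl _) (Iso.refl _) e.symm ?_ ?_ ?_
  · exact (Category.comp_id _).trans (Category.id_comp _).symm
  · exact (Category.assoc _ _ _).trans ((congrArg (T.mor₂ ≫ ·) e.hom_inv_id).trans
      ((Category.comp_id _).trans (Category.id_comp _).symm))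
  · exact (congrArg ((e.inv ≫ T.mor₃) ≫ ·) (CategoryTheory.Functor.map_id _ _)).trans (Category.comp_id _)

section Tensor

attribute [local instance] HasDerivedCategory.standard

open Groth.Agent.PerfC.DTens Groth.Agent.PerfC.RHomD Groth.Agent.PerfC.IsoLocus
  Groth.Agent.PerfC.RHomBnd556 Groth.Agent.PerfC.LpullTens

variable {X : Scheme.{u}}

/-- The functor `K ⊗ᴸ -` sends a triangle with `X₁ ≤ -1` to ... -/
lemma bijective_tensor (N : DCoh.D X) (n : ℤ) (hN : N.IsLE n) (T : Triangle (DCoh.D X))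
    (hT : T ∈ distTriang (DCoh.D X)) (h1 : T.obj₁.IsLE (-1)) (G : DCoh.D X) (hG : G.IsGE n) :
    Function.Bijective (fun g : ((LTX X).obj N).obj T.obj₃ ⟶ G => ((LTX X).obj N).map T.mor₂ ≫ g) := by
  obtain ⟨_, _⟩ := isTriang_LTX_obj N
  have h2 := ((LTX X).obj N).map_distinguished T hT
  have h3 : (((LTX X).obj N).obj T.obj₁).IsLE (n - 1) := by
    have := isLE_LTX N T.obj₁ n (-1)
    exact this
  exact bijective_precomp _ h2 n h3 G hG

/-- The truncation map `T ⟶ O` for `T ≤ 0` with `H⁰(T) ≅ O`. -/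
lemma exists_triangle (T : DCoh.D X) (hT : T.IsLE 0) (e : DCoh.HD T 0 ≅ Coh.structureModule X) :
    ∃ (T' : DCoh.D X) (_ : T'.IsLE (-1)) (f : T' ⟶ T) (c : T ⟶ DerivedCategory.Q.obj (unitCx X))
      (δ : DerivedCategory.Q.obj (unitCx X) ⟶ T'⟦(1 : ℤ)⟧),
      Triangle.mk f c δ ∈ distTriang (DCoh.D X) := by
  have hd := triangle_dist T (-1) 0 (by lia)
  let G0 : DCoh.D X := (TStructure.t.truncGE 0).obj T
  have hG0 : G0.IsGE 0 := TStructure.t.isGE_truncGE_obj T 0 0 le_rfl
  have hG0' : G0.IsLE 0 := by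
    rw [isLE_iff]
    intro j hj
    have := isIso_homology_truncGEπ T 0 j hj.le
    exact (isZero_of_isLE T 0 j hj).of_iso (asIso ((homologyFunctor X.Modules j).map
      ((TStructure.t.truncGEπ 0).app T))).symm
  obtain ⟨e1⟩ := exists_iso_single G0 0
  have := isIso_homology_truncGEπ T 0 0 le_rfl
  let e2 : (homologyFunctor X.Modules 0).obj G0 ≅ Coh.structureModule X :=
    (asIso ((homologyFunctor X.Modules 0).map ((TStructure.t.truncGEπ 0).app T))).symm ≪≫ e
  let e3 : G0 ≅ DerivedCategory.Q.obj (unitCx X) := e1 ≪≫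
    (singleFunctor X.Modules 0).mapIso e2 ≪≫ (singleFunctorIsoCompQ X.Modules 0).app _
  exact ⟨(TStructure.t.truncLE (-1)).obj T, TStructure.t.isLE_truncLE_obj T (-1) (-1) le_rfl,
    _, _, _, dist_of_iso₃ _ hd e3⟩

/-- `Hⁿ(RHom(T, G)) ≅ Hⁿ(G)` for `T ≤ 0`, `H⁰(T) ≅ O` and `G` concentrated in degree `n`. -/
theorem nonempty_iso_RH (T G : DCoh.D X) (n : ℤ) (hT : T.IsLE 0) (e : DCoh.HD T 0 ≅ Coh.structureModule X)
    (hG1 : G.IsLE n) (hG2 : G.IsGE n) : Nonempty (DCoh.HD ((RH T).obj G) n ≅ DCoh.HD G n) := by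
  obtain ⟨T', hT', f, c, δ, hd⟩ := exists_triangle T hT e
  let u := unitIso X
  let adj := rhAdj T
  let h : G ⟶ (RH T).obj G := adj.homEquiv G G (((LTX X).obj G).map c ≫ u.hom.app G)
  have hb : ∀ N : DCoh.D X, N.IsLE n → Function.Bijective (fun g : N ⟶ G => g ≫ h) := by
    intro N hN
    have b1 := bijective_tensor N n hN _ hd hT' G hG2
    have b2 : Function.Bijective (fun g : N ⟶ G => u.hom.app N ≫ g) :=
      ((u.app N).symm.homFromEquiv (Z := G)).bijective
    have b3 := (adj.homEquiv N G).bijective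
    have b4 := b3.comp (b1.comp b2)
    convert b4 using 1
    funext g
    dsimp only [Function.comp_apply]
    apply (adj.homEquiv N G).symm.injective
    rw [Equiv.symm_apply_apply]
    have e1 : (adj.homEquiv N G).symm (g ≫ h) = ((LTX X).flip.obj T).map g ≫ (adj.homEquiv G G).symm h :=
      adj.homEquiv_naturality_left_symm g h
    rw [e1]
    change _ ≫ (adj.homEquiv G G).symm (adj.homEquiv G G _) = _
    rw [Equiv.symm_apply_apply]
    have e2 : ((LTX X).flip.obj T).map g ≫ ((LTX X).obj G).map c =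
        ((LTX X).obj N).map c ≫ ((LTX X).map g).app _ := (((LTX X).map g).naturality c).symm
    have e3 : ((LTX X).map g).app (DerivedCategory.Q.obj (unitCx X)) ≫ u.hom.app G = u.hom.app N ≫ g :=
      u.hom.naturality g
    rw [reassoc_of% e2, e3]
    rfl
  have := isIso_homology n hG1 h hb
  exact ⟨(asIso ((homologyFunctor X.Modules n).map h)).symm⟩

end Tensor

end Groth.Agent.Dual.H339.DualBound
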