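import Groth.Agent.S1118
import Groth.Agent.Dcoh.PerfDual
import Groth.Agent.Dcoh.MonLpull182
import Groth.Agent.Dcoh.MonPull292
import Groth.Agent.PerfC.RHomD
import Groth.Agent.Ega1.ADualUniv
import Groth.Agent.PerfC.ProjAbs291
import Groth.Agent.Ega2.QCohLocal

/-!
# Universal pairs and duality: `Rf_* L ≅ RHom(Rf_* O, K)`

`f : X ⟶ Y` quasi-compact and quasi-separated, `Univ f K L`, and `Rf_* O` perfect. Then
* `Rf_* L ≅ RHom(Rf_* O, K)`;
* `Lf^* Rf_* L ≅ RHom(Lf^* Rf_* O, Lf^* K)`.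
-/

set_option autoImplicit false

universe u v

open CategoryTheory CategoryTheory.Limits AlgebraicGeometry MonoidalCategory

attribute [local instance] HasDerivedCategory.standard

namespace Groth.Agent.Dual.H339.DualPair

open Groth.Agent.PerfC.DTens Groth.Agent.PerfC.RHomD Groth.Agent.PerfC.LpullTens
  Groth.Agent.Ega1.ADualUniv
open scoped Groth.Agent.Dcoh.MonCat Groth.Agent.Dcoh.ModD

/-- Yoneda on a full subcategory. -/
lemma nonempty_iso_of_natural {C : Type u} [Category.{v} C] (P : ObjectProperty C) {A B : C} (hA : P A) (hB : P B)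
    (e : ∀ N : C, P N → (N ⟶ A) → (N ⟶ B)) (he : ∀ N hN, Function.Bijective (e N hN))
    (nat : ∀ (N N' : C) (hN : P N) (hN' : P N') (u : N' ⟶ N) (g : N ⟶ A),
      e N' hN' (u ≫ g) = u ≫ e N hN g) : Nonempty (A ≅ B) := by
  let h : A ⟶ B := e A hA (𝟙 A)
  obtain ⟨k, hk⟩ := (he B hB).2 (𝟙 B)
  have key : ∀ (N : C) (hN : P N) (g : N ⟶ A), e N hN g = g ≫ h := fun N hN g => by
    rw [← nat A N hA hN g (𝟙 A), Category.comp_id]
  have e1 : k ≫ h = 𝟙 B := by rw [← key B hB k, hk]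
  refine ⟨⟨h, k, ?_, e1⟩⟩
  apply (he A hA).1
  rw [key, key, Category.assoc, e1, Category.comp_id, Category.id_comp]

variable {X Y : Scheme.{u}}

/-- A perfect object has a dual compatible with pullback. -/
theorem exists_dual (f : X ⟶ Y) [DCoh.HasLpull f] (E : DCoh.D Y) (hE : DCoh.IsPerfect E) :
    ∃ E' : DCoh.D Y, DCoh.IsPerfect E' ∧ Nonempty ((LTX Y).flip.obj E ⊣ (LTX Y).flip.obj E') ∧
      Nonempty ((LTX X).flip.obj ((DCoh.Lpull f).obj E) ⊣ (LTX X).flip.obj ((DCoh.Lpull f).obj E')) := by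
  obtain ⟨E', hE', ⟨h⟩⟩ := Dcoh.PerfDual.exists_exactPairing E hE
  let _ := Dcoh.MonPull.monPull f
  let _ : (DCoh.Lpull f).Monoidal := Dcoh.MonLpull182.lpullMonoidal f
  let _ : ExactPairing ((DCoh.Lpull f).obj E) ((DCoh.Lpull f).obj E') :=
    Dcoh.DualMap.mapPairing (DCoh.Lpull f) E E'
  obtain ⟨e⟩ := Dcoh.PerfDual.nonempty_flipIso E
  obtain ⟨e'⟩ := Dcoh.PerfDual.nonempty_flipIso E'
  obtain ⟨d⟩ := Dcoh.PerfDual.nonempty_flipIso ((DCoh.Lpull f).obj E)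
  obtain ⟨d'⟩ := Dcoh.PerfDual.nonempty_flipIso ((DCoh.Lpull f).obj E')
  exact ⟨E', hE', ⟨((tensorRightAdjunction E E').ofNatIsoLeft e.symm).ofNatIsoRight e'.symm⟩,
    ⟨((tensorRightAdjunction ((DCoh.Lpull f).obj E) ((DCoh.Lpull f).obj E')).ofNatIsoLeft
      d.symm).ofNatIsoRight d'.symm⟩⟩

/-- `RHom(E, K) ≅ K ⊗ E'` and `Lf^* RHom(E, K) ≅ RHom(Lf^* E, Lf^* K)` for `E` perfect. -/
theorem exists_RH (f : X ⟶ Y) [DCoh.HasLpull f] (E : DCoh.D Y) (hE : DCoh.IsPerfect E) :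
    ∃ E' : DCoh.D Y, DCoh.IsPerfect E' ∧ Nonempty (RH E ≅ (LTX Y).flip.obj E') ∧
      Nonempty (RH E ⋙ DCoh.Lpull f ≅ DCoh.Lpull f ⋙ RH ((DCoh.Lpull f).obj E)) := by
  obtain ⟨E', hE', ⟨a⟩, ⟨b⟩⟩ := exists_dual f E hE
  have e1 : RH E ≅ (LTX Y).flip.obj E' := (rhAdj E).rightAdjointUniq a
  have e2 : RH ((DCoh.Lpull f).obj E) ≅ (LTX X).flip.obj ((DCoh.Lpull f).obj E') :=
    (rhAdj ((DCoh.Lpull f).obj E)).rightAdjointUniq b
  refine ⟨E', hE', ⟨e1⟩, ⟨Functor.isoWhiskerRight e1 (DCoh.Lpull f) ≪≫ ?_ ≪≫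
    Functor.isoWhiskerLeft (DCoh.Lpull f) e2.symm⟩⟩
  exact NatIso.ofComponents (fun K => ((lpullTens f).app K).app E') (fun {K K'} g => by
    have := congrArg (fun t => t.app E') ((lpullTens f).hom.naturality g)
    exact this)

section

variable (f : X ⟶ Y) [QuasiCompact f] [QuasiSeparated f] [DCoh.HasRpush f] [DCoh.HasLpull f]

variable (X) in
/-- The structure sheaf in `D(O_X)`. -/
noncomputable abbrev OD : DCoh.D X := DerivedCategory.Q.obj (unitCx X)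

lemma isQCohD_OD : DCoh.IsQCohD (OD X) :=
  PerfC.ProjAbs291.isQCohD_of_iso ((DerivedCategory.singleFunctorIsoCompQ X.Modules 0).app (Coh.structureModule X))
    (PerfA.QCohD.isQCohD_inD _ (Ega2.QCohLocal.isQCoh_structureModule X))

/-- `O ⊗ᴸ N ≅ N`. -/
noncomputable def unitL : (LTX X).obj (OD X) ≅ 𝟭 (DCoh.D X) :=
  (symmIso X).symm.app (OD X) ≪≫ unitIso X

/-- `N ⊗ᴸ Rf_* O ⟶ Rf_* Lf^* N`, natural in `N`. -/
noncomputable def projO : (LTX Y).flip.obj ((DCoh.Rpush f).obj (OD X)) ⟶ DCoh.Lpull f ⋙ DCoh.Rpush f :=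
  (symmIso Y).hom.app _ ≫ theta f (OD X) ≫
    Functor.whiskerLeft (DCoh.Lpull f) (Functor.whiskerRight unitL.hom (DCoh.Rpush f))

lemma isIso_projO (N : DCoh.D Y) (hN : DCoh.IsQCohD N) : IsIso ((projO f).app N) := by
  have h1 := S1118.isIso_theta_app f (OD X) isQCohD_OD N hN
  have h2 : IsIso (((symmIso Y).hom.app ((DCoh.Rpush f).obj (OD X))).app N) := inferInstance
  have h3 : IsIso ((Functor.whiskerLeft (DCoh.Lpull f)
    (Functor.whiskerRight (unitL (X := X)).hom (DCoh.Rpush f))).app N) := inferInstance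
  exact IsIso.comp_isIso' h2 (IsIso.comp_isIso' h1 h3)

/-- `Rf_* L ≅ RHom(Rf_* O, K)` for a universal pair. -/
theorem nonempty_push_iso {K : DCoh.D Y} {L : DCoh.D X} (h : Univ f K L)
    (hL : DCoh.IsQCohD ((DCoh.Rpush f).obj L))
    (hpull : ∀ N : DCoh.D Y, DCoh.IsQCohD N → DCoh.IsQCohD ((DCoh.Lpull f).obj N))
    (hK : DCoh.IsQCohD ((RH ((DCoh.Rpush f).obj (OD X))).obj K)) :
    Nonempty ((DCoh.Rpush f).obj L ≅ (RH ((DCoh.Rpush f).obj (OD X))).obj K) := by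
  obtain ⟨τ, hτ⟩ := h
  let adj := Groth.Agent.Dcoh.DerPull.lpullAdj f
  let P := (DCoh.Rpush f).obj (OD X)
  refine nonempty_iso_of_natural DCoh.IsQCohD hL hK
    (fun N hN g => (rhAdj P).homEquiv N K ((projO f).app N ≫
      ((DCoh.Rpush f).map ((adj.homEquiv N L).symm g) ≫ τ))) ?_ ?_
  · intro N hN
    have := isIso_projO f N hN
    have b1 := (adj.homEquiv N L).symm.bijective
    have b2 := hτ.bij ((DCoh.Lpull f).obj N) (hpull N hN)
    have b3 : Function.Bijective (fun g : (DCoh.Rpush f).obj ((DCoh.Lpull f).obj N) ⟶ K =>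
        (projO f).app N ≫ g) := ((asIso ((projO f).app N)).symm.homFromEquiv (Z := K)).bijective
    have b4 := ((rhAdj P).homEquiv N K).bijective
    exact b4.comp (b3.comp (b2.comp b1))
  · intro N N' hN hN' u g
    rw [adj.homEquiv_naturality_left_symm, Functor.map_comp, Category.assoc,
      ← (rhAdj P).homEquiv_naturality_left]
    have e1 := (projO f).naturality u
    have e2 : (projO f).app N' ≫ (DCoh.Rpush f).map ((DCoh.Lpull f).map u) =
      ((LTX Y).flip.obj P).map u ≫ (projO f).app N := e1.symm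
    rw [← Category.assoc ((projO f).app N'), e2, Category.assoc]

end

end Groth.Agent.Dual.H339.DualPair
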