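import Groth.Agent.Dual.H339.Twist
import Groth.Agent.Dual.H339.LocalDeg
import Groth.Agent.Dual.H339.PerfPush
import Groth.Agent.Dual.H339.OmegaRank
import Groth.Agent.LoccohB.AdStruct
import Groth.Agent.PerfB.FlatPull
import Groth.Agent.S1676

/-!
# `f^! O_S = Λ^d Ω[d]` for `f` smooth and proper of relative dimension `d`, from flat base change

`main`: `f : X ⟶ S` proper, smooth of relative dimension `d`, `S` Noetherian, `Univ f O_S ω`; if
`Univ pr₂ O_X (L pr₁^* ω)` (flat base change), then `ω ≅ L[d]`, `L` a `d`-th exterior power of `Ω_{X/S}`.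
-/

set_option autoImplicit false

universe u

open CategoryTheory CategoryTheory.Limits AlgebraicGeometry

attribute [local instance] HasDerivedCategory.standard

namespace Groth.Agent.Dual.H339.Final

open Groth.Agent.Ega1.ADualUniv Groth.Agent.Ega1.ADualOpen Groth.Agent.LoccohB.AdStruct
  Groth.Agent.Dual.H339.DualPair

variable {X S : Scheme.{u}}

/-- `Lg^*` is the identity for `g = 𝟙`. -/
theorem nonempty_lpullId (g : X ⟶ X) (hg : g = 𝟙 X) [DCoh.HasLpull g] :
    Nonempty (DCoh.Lpull g ≅ 𝟭 (DCoh.D X)) := by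
  subst hg
  exact ⟨PerfB.LpullOpens.lpullRestrictD (𝟙 X) ≪≫ restrictDId X⟩

/-- The universal pair for the diagonal. -/
theorem univ_diagonal [IsNoetherian S] (f : X ⟶ S) [IsProper f] {K : DCoh.D X} {M : DCoh.D (pullback f f)}
    [DCoh.HasRpush (pullback.diagonal f)] [DCoh.HasRpush (pullback.snd f f)]
    (hK : DCoh.IsQCohD K) (hM : DCoh.IsQCohD M) (h : Univ (pullback.snd f f) K M) :
    Univ (pullback.diagonal f) M K := by
  have hX : IsNoetherian X := isNoetherian_of_finiteType f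
  have hP : IsNoetherian (pullback f f) := isNoetherian_of_finiteType (pullback.snd f f)
  have : DCoh.HasRpush (pullback.diagonal f ≫ pullback.snd f f) := Dcoh.DerSch.hasRpush _
  have : DCoh.HasRpush (𝟙 X) := Dcoh.DerSch.hasRpush _
  obtain ⟨L, hL⟩ := exists_univ (pullback.diagonal f) M hM
  have h1 : Univ (pullback.diagonal f ≫ pullback.snd f f) K L :=
    Univ.comp' (pullback.diagonal f) (pullback.snd f f) h hL
  have h2 : Univ (𝟙 X) K L := Univ.of_eq (pullback.diagonal_snd f) h1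
  obtain ⟨e⟩ := h2.unique (Univ.id hK)
  exact hL.of_iso_left e hK

/-- `f^! O_S = Λ^d Ω[d]`, given flat base change. -/
theorem main [IsNoetherian S] (d : ℕ) (f : X ⟶ S) [IsProper f] [SmoothOfRelativeDimension d f]
    {ω : DCoh.D X} {K₀ : DCoh.D X} (hK₀ : Nonempty (K₀ ≅ DCoh.inD X (Coh.structureModule X)))
    [DCoh.HasRpush (pullback.snd f f)] [DCoh.HasLpull (pullback.fst f f)]
    (hω : DCoh.IsQCohD ω) (b : ℤ) (hb : ω.IsGE b)
    (h : Univ (pullback.snd f f) K₀ ((DCoh.Lpull (pullback.fst f f)).obj ω))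
    (L : X.Modules) (hL : ExtPow.IsExtPow d (Omega.sheaf f) L) :
    Nonempty (ω ≅ (DCoh.inD X L)⟦(d : ℤ)⟧) := by
  have hX : IsNoetherian X := isNoetherian_of_finiteType f
  have hP : IsNoetherian (pullback f f) := isNoetherian_of_finiteType (pullback.snd f f)
  have hsm : Smooth f := SmoothOfRelativeDimension.smooth d f
  have : DCoh.HasRpush (pullback.diagonal f) := Dcoh.DerSch.hasRpush _
  have : DCoh.HasLpull (pullback.diagonal f) := S0959.result _
  have : DCoh.HasLpull (𝟙 X) := S0959.result _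
  obtain ⟨e₀⟩ := hK₀
  have hO : DCoh.IsQCohD (DCoh.inD X (Coh.structureModule X)) :=
    PerfA.QCohD.isQCohD_inD _ (Ega2.QCohLocal.isQCoh_structureModule X)
  let K : DCoh.D (pullback f f) := (DCoh.Lpull (pullback.fst f f)).obj ω
  have hK : DCoh.IsQCohD K := S1054.result _ ω hω
  have hKb : K.IsGE b := by
    have h1 : ((Scheme.Modules.pullback (pullback.fst f f)).mapDerivedCategory.obj ω).IsGE b :=
      PerfA.ExactD.isGE_map _ _ _
    exact ⟨(DerivedCategory.TStructure.t.isGE_of_iso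
      ((PerfC.LpullFlat.lpullIso (pullback.fst f f)).symm.app ω) b).ge⟩
  have h0 : Univ (pullback.snd f f) (DCoh.inD X (Coh.structureModule X)) K := h.of_iso_right e₀
  have hΔ : Univ (pullback.diagonal f) K (DCoh.inD X (Coh.structureModule X)) :=
    univ_diagonal f hO hK h0
  have hi : Mor2.IsRegularClosedImmersion (pullback.diagonal f) :=
    S1676.result (pullback.snd f f) (pullback.diagonal f) (pullback.diagonal_snd f)
  have hN : FlatMod.IsFinLocFreeOfRank d (Omega.conormal (pullback.diagonal f)) :=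
    OmegaRank.isFinLocFreeOfRank_omega d f
  -- `L Δ^* K ≅ ω`
  obtain ⟨e1⟩ : Nonempty ((DCoh.Lpull (pullback.diagonal f)).obj K ≅ ω) := by
    have : DCoh.HasLpull (pullback.diagonal f ≫ pullback.fst f f) := S0959.result _
    obtain ⟨a⟩ := S0911.result (pullback.diagonal f) (pullback.fst f f)
    obtain ⟨c⟩ := nonempty_lpullId (pullback.diagonal f ≫ pullback.fst f f) (pullback.diagonal_fst f)
    exact ⟨a.app ω ≪≫ c.app ω⟩
  have hdeg : ∀ q : ℤ, q ≠ -(d : ℤ) → IsZero (DCoh.HD ω q) := by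
    intro q hq
    refine IsZero.of_iso ?_ ((DerivedCategory.homologyFunctor X.Modules q).mapIso e1.symm)
    rw [LocalDeg.isZero_HD_iff (pullback.diagonal f) hi hN hK b hKb hΔ q (d + q) rfl]
    have i1 : (DCoh.inD X (Coh.structureModule X)).IsGE 0 :=
      inferInstanceAs (((DerivedCategory.singleFunctor X.Modules 0).obj _).IsGE 0)
    have i2 : (DCoh.inD X (Coh.structureModule X)).IsLE 0 :=
      inferInstanceAs (((DerivedCategory.singleFunctor X.Modules 0).obj _).IsLE 0)
    rcases lt_or_gt_of_ne (show (d : ℤ) + q ≠ 0 by omega) with h' | h'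
    · exact DerivedCategory.isZero_of_isGE _ 0 _ h'
    · exact DerivedCategory.isZero_of_isLE _ 0 _ h'
  have hLE : ω.IsLE (-(d : ℤ)) := by
    rw [DerivedCategory.isLE_iff]
    exact fun q hq => hdeg q (by omega)
  have hGE : ω.IsGE (-(d : ℤ)) := by
    rw [DerivedCategory.isGE_iff]
    exact fun q hq => hdeg q (by omega)
  have hperf : DCoh.IsPerfect ((DCoh.Rpush (pullback.diagonal f)).obj (OD X)) :=
    Dcoh.LocalD.isPerfect_of_iso ((DCoh.Rpush (pullback.diagonal f)).mapIso Twist.ODIso.symm)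
      (PerfPush.isPerfect_push (pullback.diagonal f) hi)
  have hΔ' : Univ (pullback.diagonal f) K ((DCoh.inD X (Coh.structureModule X))⟦(0 : ℤ)⟧) :=
    hΔ.of_iso_left ((shiftFunctorZero (DCoh.D X) ℤ).symm.app _)
      (PerfC.ProjAbs291.isQCohD_shift hO 0)
  have hLE' : ((DCoh.Lpull (pullback.diagonal f)).obj K).IsLE (-(d : ℤ)) :=
    ⟨(DerivedCategory.TStructure.t.isLE_of_iso e1.symm _).le⟩
  have hGE' : ((DCoh.Lpull (pullback.diagonal f)).obj K).IsGE (-(d : ℤ)) :=
    ⟨(DerivedCategory.TStructure.t.isGE_of_iso e1.symm _).ge⟩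
  obtain ⟨e2⟩ := Twist.main (pullback.diagonal f) hi hperf hL hK (Coh.structureModule X) 0 (-(d : ℤ))
    hΔ' hLE' hGE' (zero_add _)
  let e3 : L ≅ DCoh.HD ω (-(d : ℤ)) := (Sga67.TensorOps.tensorUnit L).symm ≪≫ e2 ≪≫
    (DerivedCategory.homologyFunctor X.Modules (-(d : ℤ))).mapIso e1
  obtain ⟨e4⟩ := LoccohB.DCalc.exists_iso_single ω (-(d : ℤ))
  refine ⟨e4 ≪≫ (DerivedCategory.singleFunctor X.Modules (-(d : ℤ))).mapIso e3.symm ≪≫ ?_⟩
  exact (((DerivedCategory.singleFunctors X.Modules).shiftIso (d : ℤ) (-(d : ℤ)) 0 (by omega)).app L).symm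

end Groth.Agent.Dual.H339.Final
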