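import Groth.Agent.Dual.H339.Core
import Groth.Agent.Dual.H346.EtaleMain

/-!
# S3635 from the functor form of flat base change
-/

set_option autoImplicit false

universe u

open CategoryTheory CategoryTheory.Limits AlgebraicGeometry

attribute [local instance] HasDerivedCategory.standard

namespace Groth.Agent.Dual.H339.FromFBC

open Groth.Agent.Ega1.ADualUniv Groth.Agent.Ega1.ADualOpen Groth.Agent.LoccohB.AdStruct
  Groth.Agent.Dual.H339.DualPair Groth.Agent.Dcoh.DerSch

variable {X S : Scheme.{u}}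

/-- The pair `(Lf^* O, L pr₁^* a(O))` is universal for `pr₂`, from the functor form of flat base
change. -/
theorem univ_of_FBC [IsNoetherian S] (f : X ⟶ S) [IsProper f] [Flat f]
    (a : DCoh.DQCoh S ⥤ DCoh.DQCoh X)
    (O : DCoh.DQCoh S) (hO : Dual3.IsBddBelowQ S O) [hL : DCoh.HasLpull f]
    [hR : DCoh.HasRpush (pullback.snd f f)] [hL' : DCoh.HasLpull (pullback.fst f f)]
    (hFBC : H346.EtaleMain.FBC f f a) :
    Univ (pullback.snd f f) ((DCoh.Lpull f).obj O.obj)
      ((DCoh.Lpull (pullback.fst f f)).obj (a.obj O).obj) := by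
  have hX : IsNoetherian X := isNoetherian_of_finiteType f
  let p : pullback f f ⟶ X := pullback.snd f f
  let g' : pullback f f ⟶ X := pullback.fst f f
  have hp : IsProper p := inferInstance
  have hZ : IsNoetherian (pullback f f) := isNoetherian_of_finiteType p
  have hpQ : DCoh.RpushPreservesQCoh p := fun N hN => S0998.result p N hN
  have hfQ : Dual3.LpullPreservesQCoh f := fun N hN => S1054.result f N hN
  have hgQ : Dual3.LpullPreservesQCoh g' := fun N hN => S1054.result g' N hN
  have := S1766.result (pullback f f) X p hpQ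
  let a' : DCoh.DQCoh X ⥤ DCoh.DQCoh (pullback f f) := (DCoh.RpushQ p hpQ).rightAdjoint
  let adj' : DCoh.RpushQ p hpQ ⊣ a' := Adjunction.ofIsLeftAdjoint _
  obtain ⟨e⟩ := hFBC hR hL' hpQ hfQ hgQ a' adj'
  have h1 : Univ p ((DCoh.Lpull f).obj O.obj) (a'.obj ((Dual3.LpullQ f hfQ).obj O)).obj :=
    univ_of_adj (h := hpQ) adj' ((Dual3.LpullQ f hfQ).obj O)
  exact h1.of_iso_left ((ObjectProperty.ι DCoh.IsQCohD).mapIso (e.app ⟨O, hO⟩).symm)
    (hgQ _ (a.obj O).property)

/-- S3635 from the functor form of flat base change. -/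
theorem main [IsNoetherian S] (d : ℕ) (f : X ⟶ S) [IsProper f] [SmoothOfRelativeDimension d f]
    [DCoh.HasRpush f] (hf : DCoh.RpushPreservesQCoh f) (a : DCoh.DQCoh S ⥤ DCoh.DQCoh X)
    (adj : DCoh.RpushQ f hf ⊣ a) (O : DCoh.DQCoh S)
    (hO : Nonempty (O.obj ≅ DCoh.inD S (Coh.structureModule S))) (L : X.Modules)
    (hL : ExtPow.IsExtPow d (Omega.sheaf f) L) [DCoh.HasLpull f]
    (hFBC : H346.EtaleMain.FBC f f a) :
    Nonempty ((a.obj O).obj ≅ (DCoh.inD X L)⟦(d : ℤ)⟧) := by
  have hfs : Smooth f := SmoothOfRelativeDimension.smooth d f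
  have hfl : Flat f := inferInstance
  have hR := hasRpush (pullback.snd f f)
  have hL' := S0959.result (pullback.fst f f)
  refine Core.core d f hf a adj O hO L hL (univ_of_FBC f a O ?_ hFBC)
  obtain ⟨e⟩ := hO
  have : (DCoh.inD S (Coh.structureModule S)).IsGE 0 :=
    inferInstanceAs (((DerivedCategory.singleFunctor S.Modules 0).obj _).IsGE 0)
  exact ⟨0, DerivedCategory.TStructure.t.isGE_of_iso e.symm _⟩

end Groth.Agent.Dual.H339.FromFBC
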