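import Groth.Agent.Dual.H339.DualPair
import Groth.Agent.Dual.H339.DualBound
import Groth.Agent.Dual.H339.KosHD
import Groth.Agent.Sga67.TensorOps
import Groth.Agent.S1054
import Groth.Agent.S0998
import Groth.Agent.LoccohB.DQCohBasic

/-!
# The fundamental local isomorphism in twisted form

Let `i : Z ⟶ Y` be a regular closed immersion with `i_* O_Z` perfect, whose conormal module is locally free
of rank `m`, with `m`-th exterior power `LC`. Let `K ∈ D_QCoh(Y)` and let `L = w[a]` be universal for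
`(i, K)` ("`L = i^! K`"). If `Li^* K` is concentrated in degree `n` with `n + a = -m`, then
`w ⊗ LC ≅ Hⁿ(Li^* K)`.
-/

set_option autoImplicit false

universe u

open CategoryTheory CategoryTheory.Limits AlgebraicGeometry

attribute [local instance] HasDerivedCategory.standard

namespace Groth.Agent.Dual.H339.Twist

open Groth.Agent.PerfC.DTens Groth.Agent.PerfC.RHomD Groth.Agent.PerfC.LpullTens
  Groth.Agent.Ega1.ADualUniv Groth.Agent.Dual.H339.DualPair

variable {X Y : Scheme.{u}}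

/-- `HD (Lf^* Rf_* (K⟦a⟧)) n ≅ HD (Lf^* Rf_* K) (a + n)`. -/
theorem nonempty_HD_shift (f : X ⟶ Y) [DCoh.HasLpull f] [DCoh.HasRpush f] (K : DCoh.D X) (a n m : ℤ)
    (h : a + n = m) : Nonempty (DCoh.HD ((DCoh.Lpull f).obj ((DCoh.Rpush f).obj (K⟦a⟧))) n ≅
      DCoh.HD ((DCoh.Lpull f).obj ((DCoh.Rpush f).obj K)) m) := by
  let _ := Groth.Agent.Dcoh.DerPull.lpullCommShift f
  let _ := Groth.Agent.Dcoh.DerSch.rpushCommShift f
  exact ⟨(DerivedCategory.homologyFunctor X.Modules n).mapIso ((DCoh.Lpull f).mapIso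
    (((DCoh.Rpush f).commShiftIso a).app K) ≪≫ ((DCoh.Lpull f).commShiftIso a).app ((DCoh.Rpush f).obj K)) ≪≫
    LoccohB.DQCohBasic.homologyShiftIso _ a n m h⟩

/-- `Lf^* Rf_* L ≅ RHom(Lf^* Rf_* O, Lf^* K)` for a universal pair `(K, L)` with `Rf_* O` perfect. -/
theorem nonempty_pullPush_iso (f : X ⟶ Y) [QuasiCompact f] [QuasiSeparated f] [DCoh.HasLpull f]
    [DCoh.HasRpush f] (hP : DCoh.IsPerfect ((DCoh.Rpush f).obj (OD X))) {K : DCoh.D Y} {L : DCoh.D X}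
    (hK : DCoh.IsQCohD K) (h : Univ f K L) :
    Nonempty ((DCoh.Lpull f).obj ((DCoh.Rpush f).obj L) ≅
      (RH ((DCoh.Lpull f).obj ((DCoh.Rpush f).obj (OD X)))).obj ((DCoh.Lpull f).obj K)) := by
  obtain ⟨E', hE', ⟨e1⟩, ⟨e2⟩⟩ := exists_RH f ((DCoh.Rpush f).obj (OD X)) hP
  have hRH : DCoh.IsQCohD ((RH ((DCoh.Rpush f).obj (OD X))).obj K) :=
    PerfC.ProjAbs291.isQCohD_of_iso (e1.app K).symm
      (PerfC.ProjAbs291.isQCohD_LTX hK (PerfA.QCohD.isQCohD_of_isPerfect E' hE'))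
  obtain ⟨e3⟩ := nonempty_push_iso f h (S0998.result f L h.qcoh) (fun N hN => S1054.result f N hN) hRH
  exact ⟨(DCoh.Lpull f).mapIso e3 ≪≫ e2.app K⟩

/-- `OD X ≅ inD X O`. -/
noncomputable def ODIso : OD X ≅ DCoh.inD X (Coh.structureModule X) :=
  ((DerivedCategory.singleFunctorIsoCompQ X.Modules 0).app (Coh.structureModule X)).symm

/-- The twisted fundamental local isomorphism. -/
theorem main (i : X ⟶ Y) [IsClosedImmersion i] [DCoh.HasLpull i] [DCoh.HasRpush i]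
    (hi : Mor2.IsRegularClosedImmersion i) (hP : DCoh.IsPerfect ((DCoh.Rpush i).obj (OD X)))
    {m : ℕ} {LC : X.Modules} (hLC : ExtPow.IsExtPow m (Omega.conormal i) LC)
    {K : DCoh.D Y} (hK : DCoh.IsQCohD K) (w : X.Modules) (a n : ℤ)
    (h : Univ i K ((DCoh.inD X w)⟦a⟧)) (hn1 : ((DCoh.Lpull i).obj K).IsLE n)
    (hn2 : ((DCoh.Lpull i).obj K).IsGE n) (han : a + n = -(m : ℤ)) :
    Nonempty (CohB1.tensorMod w LC ≅ DCoh.HD ((DCoh.Lpull i).obj K) n) := by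
  let T : DCoh.D X := (DCoh.Lpull i).obj ((DCoh.Rpush i).obj (OD X))
  let t : T ≅ (DCoh.Lpull i).obj ((DCoh.Rpush i).obj (DCoh.inD X (Coh.structureModule X))) :=
    (DCoh.Lpull i).mapIso ((DCoh.Rpush i).mapIso ODIso)
  have hT : T.IsLE 0 := by
    have := KosHD.isLE i (Coh.structureModule X)
    exact ⟨DerivedCategory.TStructure.t.isLE_of_iso t.symm 0 |>.le⟩
  obtain ⟨e0⟩ := KosHD.nonempty_iso i hi (Coh.structureModule X) 0 (Sga67.TensorOps.isExtPow_zero _)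
  let e0' : DCoh.HD T 0 ≅ Coh.structureModule X :=
    (DerivedCategory.homologyFunctor X.Modules 0).mapIso t ≪≫ e0 ≪≫ Sga67.TensorOps.tensorUnit _
  obtain ⟨e1⟩ := nonempty_pullPush_iso i hP hK h
  obtain ⟨e2⟩ := DualBound.nonempty_iso_RH T ((DCoh.Lpull i).obj K) n hT e0' hn1 hn2
  obtain ⟨e3⟩ := nonempty_HD_shift i (DCoh.inD X w) a n (-(m : ℤ)) han
  obtain ⟨e4⟩ := KosHD.nonempty_iso i hi w m hLC
  exact ⟨e4.symm ≪≫ e3.symm ≪≫ (DerivedCategory.homologyFunctor X.Modules n).mapIso e1 ≪≫ e2⟩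

end Groth.Agent.Dual.H339.Twist
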